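import Cfsg.Agent.KnownA.Ree.Tori

/-!
Conjugacy of cyclic toral subgroups and the centralisers of the two small tori.
-/

set_option autoImplicit false

universe u

namespace Cfsg.Agent.KnownA.ReeLocal

open Cfsg.Lie Cfsg.Agent.Suzuki.Ree

variable {K : Type u} [Field K] {m : ℕ} (h : Ctx K m)

/-- `G¹` -/
local notation "G₁" => twistedG2 K (3 ^ m)

include h in
theorem cyclic_subgroups_conj (hm : 1 ≤ m) {d : ℕ}
    (hd : d ∣ (3 ^ (2 * m + 1) - 1) / 2 ∨ d ∣ (3 ^ (2 * m + 1) + 1) / 4 ∨ d ∣ 3 ^ (2 * m + 1) - 3 ^ (m + 1) + 1 ∨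
      d ∣ 3 ^ (2 * m + 1) + 3 ^ (m + 1) + 1)
    (A B : Subgroup ↥G₁) (hA : IsCyclic A) (hB : IsCyclic B) (hAd : Nat.card A = d) (hBd : Nat.card B = d) :
    ∃ g : ↥G₁, B = A.map (MulAut.conj g).toMonoidHom := by
  have := h.finite
  have hgen : ∀ X : Subgroup ↥G₁, IsCyclic X → Nat.card X = d → ∃ x, X = Subgroup.zpowers x ∧ orderOf x = d := by
    intro X hX hXd
    obtain ⟨x, hx⟩ := exists_of_cyclic X hX
    obtain ⟨⟨c, hc⟩, hgen⟩ := hX.exists_generator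
    refine ⟨c, le_antisymm (fun z hz => ?_) (Subgroup.zpowers_le.2 hc), ?_⟩
    · obtain ⟨i, hi⟩ := Subgroup.mem_zpowers_iff.1 (hgen ⟨z, hz⟩)
      exact Subgroup.mem_zpowers_iff.2 ⟨i, congrArg Subtype.val hi⟩
    · rw [← hXd, ← orderOf_eq_card_of_forall_mem_zpowers hgen]
      exact Subgroup.orderOf_coe (⟨c, hc⟩ : ↥X)
  obtain ⟨a, rfl, ha⟩ := hgen A hA hAd
  obtain ⟨b, rfl, hb⟩ := hgen B hB hBd
  obtain ⟨N, hN, hdN⟩ : ∃ N, IsTorusExp m N ∧ d ∣ N := by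
    rcases hd with e | e | e | e
    · exact ⟨_, Or.inl rfl, e⟩
    · exact ⟨_, Or.inr (Or.inl rfl), e⟩
    · exact ⟨_, Or.inr (Or.inr rfl), e.trans (Dvd.intro _ (coprime_cox_pair m).2)⟩
    · exact ⟨_, Or.inr (Or.inr rfl), e.trans (Dvd.intro_left _ (coprime_cox_pair m).2)⟩
  obtain ⟨g, hg⟩ := toral_conj h hm hN (ha.trans hb.symm) (ha ▸ hdN)
  refine ⟨g, ?_⟩
  rw [MonoidHom.map_zpowers]
  exact (zpowers_eq_of_mem hg (by rw [← MulAut.conj_apply, MulEquiv.orderOf_eq, ha, hb])).symm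

include h in
theorem small_tori_centralizers (hm : 1 ≤ m) (H : Subgroup ↥G₁) (hH : IsCyclic ↥H) :
    (Nat.card H = (3 ^ (2 * m + 1) - 1) / 2 →
      IsCyclic ↥(Subgroup.centralizer (H : Set ↥G₁)) ∧
        Nat.card ↥(Subgroup.centralizer (H : Set ↥G₁)) = 3 ^ (2 * m + 1) - 1 ∧
        ∀ A : Subgroup ↥G₁, A ≤ H → A ≠ ⊥ →
          Subgroup.centralizer (A : Set ↥G₁) = Subgroup.centralizer (H : Set ↥G₁)) ∧
    (Nat.card H = (3 ^ (2 * m + 1) + 1) / 4 →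
      IsMulCommutative ↥(Subgroup.centralizer (H : Set ↥G₁)) ∧
        Nat.card ↥(Subgroup.centralizer (H : Set ↥G₁)) = 3 ^ (2 * m + 1) + 1 ∧
        (∀ x ∈ Subgroup.centralizer (H : Set ↥G₁), orderOf x ≠ 4) ∧
        ∀ A : Subgroup ↥G₁, A ≤ H → A ≠ ⊥ →
          Subgroup.centralizer (A : Set ↥G₁) = Subgroup.centralizer (H : Set ↥G₁)) := by
  have := h.finite
  have hsetup : ∀ N, IsTorusExp m N → 1 < N → Nat.card H = N →
      ∃ y : ↥G₁, y ≠ 1 ∧ y ^ N = 1 ∧ Subgroup.centralizer (H : Set ↥G₁) = Subgroup.centralizer {y} ∧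
      ∀ A : Subgroup ↥G₁, A ≤ H → A ≠ ⊥ →
        Subgroup.centralizer (A : Set ↥G₁) = Subgroup.centralizer (H : Set ↥G₁) := by
    intro N hN h1 hc
    have hexp : ∀ x ∈ H, x ^ N = 1 := fun x hx =>
      orderOf_dvd_iff_pow_eq_one.1 (hc ▸ Subgroup.orderOf_dvd_natCard _ hx)
    obtain ⟨y, hy, hy1, e, hall⟩ := centralizer_subgroups h hm hN hH hexp (fun e => by
      rw [e, Subgroup.card_bot] at hc; omega)
    exact ⟨y, hy1, hexp y hy, e, hall⟩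
  have hge := nSplit_ge hm
  refine ⟨fun hc => ?_, fun hc => ?_⟩
  · obtain ⟨y, hy1, hy, e, hall⟩ := hsetup _ (Or.inl rfl) (by omega) (hc.trans (split_eq m))
    obtain ⟨-, h1, h2, -⟩ := split_centralizer h hy1 hy
    exact ⟨e ▸ h1, e ▸ h2, hall⟩
  · obtain ⟨y, hy1, hy, e, hall⟩ := hsetup _ (Or.inr (Or.inl rfl)) (by omega) (hc.trans (ell_eq m))
    obtain ⟨h1, h2, -⟩ := ell_centralizer h hm hy1 hy
    refine ⟨by rw [e]; exact ⟨⟨fun a b => Subtype.ext (h1 _ a.2 _ b.2)⟩⟩, e ▸ h2, fun (x : ↥G₁) _ hx => ?_, hall⟩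
    have hsq : x * x = 1 := two_element_sq h hm (k := 2) (by
      rw [show (2 : ℕ) ^ 2 = orderOf x by rw [hx]; norm_num]; exact pow_orderOf_eq_one x)
    have := orderOf_dvd_of_pow_eq_one (x := x) (n := 2) (by rw [pow_two]; exact hsq)
    rw [hx] at this
    norm_num at this

end Cfsg.Agent.KnownA.ReeLocal
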