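import Cfsg.Agent.KnownA.Ree.Tori

/-!
Numbers of elements of each order in the small Ree groups.
-/

set_option autoImplicit false

universe u

namespace Cfsg.Agent.KnownA.ReeLocal

open Cfsg.Lie Cfsg.Agent.Suzuki.Ree

variable {K : Type u} [Field K] {m : ℕ} (h : Ctx K m)

/-- `G¹` -/
local notation "G₁" => twistedG2 K (3 ^ m)
/-- `B¹` -/
local notation "B₁" => chevG2.borelSubgroup K ⊓ twistedG2 K (3 ^ m)
/-- `U¹` -/
local notation "U₁" => chevG2.posUnipotent K ⊓ twistedG2 K (3 ^ m)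

include h in
theorem exists_of_order (hm : 1 ≤ m) {i n : ℕ}
    (hn : n ∈ [6, 9, 3 ^ (2 * m + 1) - 1, (3 ^ (2 * m + 1) + 1) / 2, 3 ^ (2 * m + 1) - 3 ^ (m + 1) + 1,
      3 ^ (2 * m + 1) + 3 ^ (m + 1) + 1]) (hi : i ∣ n) : ∃ a : ↥G₁, orderOf a = i := by
  have := h.finite
  obtain ⟨g, hg⟩ := orders_exist h hm n hn
  subst hg
  exact ⟨g ^ (orderOf g / i), orderOf_pow_orderOf_div (orderOf_pos g).ne' hi⟩

include h in
theorem count_split_odd (hm : 1 ≤ m) {i : ℕ} (hi : 1 < i) (hd : i ∣ nSplit m) :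
    2 * Nat.card {g : ↥G₁ // orderOf g = i} =
      Nat.totient i * (3 ^ (2 * m + 1)) ^ 3 * ((3 ^ (2 * m + 1)) ^ 3 + 1) := by
  have := h.finite
  obtain ⟨a, ha⟩ := exists_of_order h hm (i := i) (n := 3 ^ (2 * m + 1) - 1) (by simp)
    (by rw [two_split]; exact dvd_mul_of_dvd_right hd 2)
  have ha1 : a ≠ 1 := fun e => by rw [e, orderOf_one] at ha; omega
  have haN : a ^ nSplit m = 1 := orderOf_dvd_iff_pow_eq_one.1 (ha ▸ hd)
  obtain ⟨T, hT, -, hN⟩ := toral_normalizer h hm (Or.inl rfl) ha1 haN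
  have e := card_order_mul ha fun z hz => toral_conj h hm (Or.inl rfl) (hz.trans ha.symm) (hz ▸ hd)
  rw [hN, (split_data h hm ha1 haN hT).2.2, card_twisted h] at e
  have hq : 0 < 3 ^ (2 * m + 1) - 1 := by rw [two_split]; have := (nSplit_ge hm).1; omega
  refine Nat.eq_of_mul_eq_mul_right hq ?_
  generalize Nat.card {g : ↥G₁ // orderOf g = i} = c at e ⊢
  generalize 3 ^ (2 * m + 1) - 1 = q1 at e ⊢
  generalize (3 ^ (2 * m + 1)) ^ 3 = q3 at e ⊢
  linarith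

include h in
theorem count_split (hm : 1 ≤ m) {i : ℕ} (hi : 2 < i) (hd : i ∣ 3 ^ (2 * m + 1) - 1) :
    2 * Nat.card {g : ↥G₁ // orderOf g = i} =
      Nat.totient i * (3 ^ (2 * m + 1)) ^ 3 * ((3 ^ (2 * m + 1)) ^ 3 + 1) := by
  have := h.finite
  rw [two_split] at hd
  by_cases h2 : 2 ∣ i
  · obtain ⟨j, rfl⟩ := h2
    have hjd : j ∣ nSplit m := Nat.dvd_of_mul_dvd_mul_left (by norm_num) hd
    have hj : Odd j := (odd_three m).1.of_dvd_nat hjd
    rw [card_double hj 1 fun y hy => card_split_commuting h hm (fun e => by rw [e, orderOf_one] at hy; omega)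
      (orderOf_dvd_iff_pow_eq_one.1 (hy ▸ hjd)), mul_one, count_split_odd h hm (by omega) hjd,
      Nat.totient_mul (Nat.coprime_two_left.2 hj), Nat.totient_two, one_mul]
  · exact count_split_odd h hm (by omega)
      (((Nat.prime_two.coprime_iff_not_dvd).2 h2).symm.dvd_of_dvd_mul_left hd)

theorem cube_add_one (m : ℕ) : (3 ^ (2 * m + 1)) ^ 3 + 1 = (3 ^ (2 * m + 1) + 1) * nCox m := by
  have hq1 : 1 ≤ 3 ^ (2 * m + 1) := Nat.one_le_pow _ _ (by norm_num)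
  rw [nCox]
  generalize 3 ^ (2 * m + 1) = q at hq1 ⊢
  obtain ⟨d, rfl⟩ : ∃ d, q = d + 1 := ⟨q - 1, by omega⟩
  rw [Nat.add_sub_cancel]
  ring

theorem cox_value (m : ℕ) : (3 ^ (2 * m + 1)) ^ 2 - 3 ^ (2 * m + 1) + 1 = nCox m := by
  rw [nCox, Nat.mul_sub_one, pow_two]

theorem sq_sub_one (q : ℕ) : q ^ 2 - 1 = (q - 1) * (q + 1) := by
  rw [show q ^ 2 - 1 = q ^ 2 - 1 ^ 2 by norm_num, Nat.sq_sub_sq, mul_comm]

include h in
theorem count_ell (hm : 1 ≤ m) {i : ℕ} (hi : 1 < i) (hd : i ∣ (3 ^ (2 * m + 1) + 1) / 4) :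
    6 * Nat.card {g : ↥G₁ // orderOf g = i} =
        Nat.totient i * (3 ^ (2 * m + 1)) ^ 3 * (3 ^ (2 * m + 1) - 1) * ((3 ^ (2 * m + 1)) ^ 2 - 3 ^ (2 * m + 1) + 1) ∧
      2 * Nat.card {g : ↥G₁ // orderOf g = 2 * i} =
        Nat.totient i * (3 ^ (2 * m + 1)) ^ 3 * (3 ^ (2 * m + 1) - 1) * ((3 ^ (2 * m + 1)) ^ 2 - 3 ^ (2 * m + 1) + 1) := by
  have := h.finite
  rw [ell_eq] at hd
  have key : 6 * Nat.card {g : ↥G₁ // orderOf g = i} =
      Nat.totient i * (3 ^ (2 * m + 1)) ^ 3 * (3 ^ (2 * m + 1) - 1) * nCox m := by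
    obtain ⟨a, ha⟩ := exists_of_order h hm (i := i) (n := (3 ^ (2 * m + 1) + 1) / 2) (by simp)
      (by rw [two_ell]; exact dvd_mul_of_dvd_right hd 2)
    have ha1 : a ≠ 1 := fun e => by rw [e, orderOf_one] at ha; omega
    have hN : IsTorusExp m (nEll m) := Or.inr (Or.inl rfl)
    have haN : a ^ nEll m = 1 := orderOf_dvd_iff_pow_eq_one.1 (ha ▸ hd)
    obtain ⟨T, hT, -, hNT⟩ := toral_normalizer h hm hN ha1 haN
    have e := card_order_mul ha fun z hz => toral_conj h hm hN (hz.trans ha.symm) (hz ▸ hd)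
    rw [hNT, card_normalizer_ell h hm ha1 haN hT, card_twisted h, cube_add_one] at e
    refine Nat.eq_of_mul_eq_mul_right (Nat.succ_pos (3 ^ (2 * m + 1))) ?_
    rw [Nat.succ_eq_add_one]
    generalize Nat.card {g : ↥G₁ // orderOf g = i} = c at e ⊢
    generalize 3 ^ (2 * m + 1) - 1 = q1 at e ⊢
    generalize (3 ^ (2 * m + 1)) ^ 3 = q3 at e ⊢
    linarith
  rw [cox_value]
  refine ⟨key, ?_⟩
  rw [card_double ((odd_three m).2.1.of_dvd_nat hd) 3 fun y hy => card_ell_commuting h hm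
    (fun e => by rw [e, orderOf_one] at hy; omega) (orderOf_dvd_iff_pow_eq_one.1 (hy ▸ hd))]
  omega

include h in
theorem count_cox (hm : 1 ≤ m) {i n n' : ℕ} (hi : 1 < i)
    (hn : (n = 3 ^ (2 * m + 1) - 3 ^ (m + 1) + 1 ∧ n' = 3 ^ (2 * m + 1) + 3 ^ (m + 1) + 1) ∨
      (n' = 3 ^ (2 * m + 1) - 3 ^ (m + 1) + 1 ∧ n = 3 ^ (2 * m + 1) + 3 ^ (m + 1) + 1))
    (hd : i ∣ n) :
    6 * Nat.card {g : ↥G₁ // orderOf g = i} =
      Nat.totient i * (3 ^ (2 * m + 1)) ^ 3 * ((3 ^ (2 * m + 1)) ^ 2 - 1) * n' := by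
  have := h.finite
  obtain ⟨a, ha⟩ := exists_of_order h hm (i := i) (n := n) (by rcases hn with ⟨e, -⟩ | ⟨-, e⟩ <;> simp [e]) hd
  have ha1 : a ≠ 1 := fun e => by rw [e, orderOf_one] at ha; omega
  obtain ⟨haN, -, hnorm⟩ := cox_card_normalizer h hm ha1 hn (ha ▸ hd)
  have hmul : n * n' = nCox m := by
    rcases hn with ⟨rfl, rfl⟩ | ⟨rfl, rfl⟩
    exacts [(coprime_cox_pair m).2, (mul_comm _ _).trans (coprime_cox_pair m).2]
  have e := card_order_mul ha fun z hz => toral_conj h hm (Or.inr (Or.inr rfl)) (hz.trans ha.symm)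
    (hz ▸ ha ▸ orderOf_dvd_iff_pow_eq_one.2 haN)
  rw [hnorm, card_twisted h, cube_add_one, ← hmul] at e
  have hn0 : 0 < n := by rcases hn with ⟨rfl, -⟩ | ⟨-, rfl⟩ <;> omega
  refine Nat.eq_of_mul_eq_mul_right hn0 ?_
  rw [sq_sub_one]
  generalize Nat.card {g : ↥G₁ // orderOf g = i} = c at e ⊢
  generalize 3 ^ (2 * m + 1) - 1 = q1 at e ⊢
  generalize (3 ^ (2 * m + 1)) ^ 3 = q3 at e ⊢
  linarith

include h in
/-- three-elements of a given order, counted in one Sylow subgroup -/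
theorem count_three_parts (_hm : 1 ≤ m) :
    Nat.card {g : ↥G₁ // orderOf g = 3} = ((3 ^ (2 * m + 1)) ^ 2 - 1) * ((3 ^ (2 * m + 1)) ^ 3 + 1) ∧
      Nat.card {g : ↥G₁ // orderOf g = 9} =
        (3 ^ (2 * m + 1)) ^ 2 * (3 ^ (2 * m + 1) - 1) * ((3 ^ (2 * m + 1)) ^ 3 + 1) := by
  classical
  have := h.finite
  have := h.char
  let := Fintype.ofFinite K
  have : Fact (Nat.Prime 3) := ⟨Nat.prime_three⟩
  set T := (U₁).subgroupOf G₁ with hT
  have hBn : (B₁).subgroupOf G₁ ≤ Subgroup.normalizer (T : Set ↥G₁) := by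
    intro b hb
    have hb' := Subgroup.mem_subgroupOf.1 hb
    refine Subgroup.mem_normalizer_iff.2 fun x => ⟨fun hx => ?_, fun hx => ?_⟩
    · exact Subgroup.mem_subgroupOf.2 (borel_normalises h hb' (Subgroup.mem_subgroupOf.1 hx))
    · have := borel_normalises h (inv_mem hb') (Subgroup.mem_subgroupOf.1 hx)
      refine Subgroup.mem_subgroupOf.2 ?_
      rwa [Subgroup.coe_mul, Subgroup.coe_mul, Subgroup.coe_inv,
        show b.1⁻¹ * (b.1 * x.1 * b.1⁻¹) * b.1⁻¹⁻¹ = x.1 by group] at this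
  have hti : ∀ y ∈ T, y ≠ 1 → ∀ g : ↥G₁, g * y * g⁻¹ ∈ T → g ∈ (B₁).subgroupOf G₁ := by
    intro y hy hy1 g hg
    have hgy := Subgroup.mem_subgroupOf.1 hg
    rw [Subgroup.coe_mul, Subgroup.coe_mul, Subgroup.coe_inv] at hgy
    have := Cfsg.Agent.Suzuki.Ree.ti h (inv_mem g.2) (Subgroup.mem_subgroupOf.1 hy) (by rw [inv_inv]; exact hgy)
      (fun e => hy1 (Subtype.ext e))
    exact Subgroup.mem_subgroupOf.2 (by simpa using inv_mem this)
  let f : K × K × K → ↥T := fun p => ⟨⟨reeU m p.1 p.2.1 p.2.2, reeU_mem _ _ _⟩,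
    Subgroup.mem_subgroupOf.2 ((mem_unipotent_twisted h _).2 ⟨_, _, _, rfl⟩)⟩
  have hf : Function.Bijective f := by
    constructor
    · rintro ⟨a, b, c⟩ ⟨a', b', c'⟩ e
      obtain ⟨h1, h2, h3⟩ := reeU_inj h (congrArg (fun z : ↥T => z.1.1) e)
      exact Prod.ext h1 (Prod.ext h2 h3)
    · rintro ⟨⟨g, hg⟩, hgT⟩
      obtain ⟨t, u, v, e⟩ := (mem_unipotent_twisted h _).1 (Subgroup.mem_subgroupOf.1 hgT)
      exact ⟨(t, u, v), Subtype.ext (Subtype.ext e.symm)⟩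
  have hcube : ∀ p, (f p).1 ^ 3 = 1 ↔ p.1 = 0 := fun p => by
    rw [← cube_eq_one_iff h p.1 p.2.1 p.2.2]
    exact ⟨fun e => congrArg Subtype.val e, fun e => Subtype.ext e⟩
  have hone : ∀ p, (f p).1 = 1 ↔ p = 0 := fun p => by
    constructor
    · intro e
      obtain ⟨h1, h2, h3⟩ := reeU_inj h ((congrArg Subtype.val e).trans (reeU_zero h).symm)
      exact Prod.ext h1 (Prod.ext h2 h3)
    · rintro rfl
      exact Subtype.ext (reeU_zero h)
  have hnine : ∀ p, (f p).1 ^ 9 = 1 := fun p => by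
    have hU : Nat.card ↥T = 3 ^ ((2 * m + 1) * 3) := by
      rw [hT, Nat.card_congr (Subgroup.subgroupOfEquivOfLe inf_le_right).toEquiv, card_unipotent h, ← pow_mul]
    obtain ⟨k, hk⟩ := IsPGroup.of_card hU (f p)
    exact (three_element h (k := k) (congrArg Subtype.val hk :)).1
  have h3 : ∀ p, orderOf (f p).1 = 3 ↔ p.1 = 0 ∧ p ≠ 0 := fun p => by
    rw [orderOf_eq_prime_iff, hcube, ne_eq, hone]
  have h9 : ∀ p, orderOf (f p).1 = 9 ↔ p.1 ≠ 0 := fun p => by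
    constructor
    · intro e e0
      have := orderOf_dvd_of_pow_eq_one ((hcube p).2 e0)
      rw [e] at this
      norm_num at this
    · intro e
      have := orderOf_eq_prime_pow (x := (f p).1) (p := 3) (n := 1) (by rw [pow_one, hcube]; exact e)
        (by norm_num; exact hnine p)
      simpa using this
  have hcount : ∀ k, 1 < k → (∀ g : ↥G₁, orderOf g = k → g ^ 9 = 1) →
      Nat.card {g : ↥G₁ // orderOf g = k} * ((3 ^ (2 * m + 1)) ^ 3 * (3 ^ (2 * m + 1) - 1)) =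
        (3 ^ (2 * m + 1)) ^ 3 * (3 ^ (2 * m + 1) - 1) * ((3 ^ (2 * m + 1)) ^ 3 + 1) *
          Nat.card {p : K × K × K // orderOf (f p).1 = k} := by
    intro k hk hk9
    have hne : T ≠ ⊥ := fun e => by
      have := (hone _).1 (Subgroup.mem_bot.1 (e.le (f ((1 : K), 0, 0)).2))
      exact one_ne_zero (congrArg Prod.fst this)
    obtain ⟨y, hy, hy1⟩ := (Subgroup.bot_or_exists_ne_one T).resolve_left hne
    have hN : Subgroup.normalizer (T : Set ↥G₁) = (B₁).subgroupOf G₁ :=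
      le_antisymm (fun g hg => hti y hy hy1 g ((Subgroup.mem_normalizer_iff.1 hg y).1 hy)) hBn
    have e := card_invariant T (fun g => orderOf g = k)
      (fun g z hz => by rw [← MulAut.conj_apply, MulEquiv.orderOf_eq, hz])
      (fun z hz => by
        obtain ⟨g, hg⟩ := (three_element h (k := 2) (x := z) (by norm_num; exact hk9 z hz)).2
        exact ⟨g, Subgroup.mem_subgroupOf.2 ⟨hg, (g * z * g⁻¹).2⟩⟩)
      (fun y hy hyk g hg => hN ▸ hti y hy (fun e => by rw [e, orderOf_one] at hyk; omega) g hg)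
    rw [hN, Nat.card_congr (Subgroup.subgroupOfEquivOfLe inf_le_right).toEquiv, card_borel_twisted h,
      card_twisted h] at e
    rw [e, ← Nat.card_congr ((Equiv.ofBijective f hf).subtypeEquiv
      (p := fun p => orderOf (f p).1 = k) (q := fun y : ↥T => orderOf y.1 = k) fun p => Iff.rfl)]
  have hq0 : 0 < (3 ^ (2 * m + 1)) ^ 3 * (3 ^ (2 * m + 1) - 1) := by
    have : 1 < 3 ^ (2 * m + 1) := Nat.one_lt_pow (by omega) (by norm_num)
    exact Nat.mul_pos (by positivity) (by omega)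
  have hK : Nat.card K = 3 ^ (2 * m + 1) := h.card
  constructor
  · have e := hcount 3 (by norm_num) fun g hg => orderOf_dvd_iff_pow_eq_one.1 (by rw [hg]; norm_num)
    have hc : Nat.card {p : K × K × K // orderOf (f p).1 = 3} = (3 ^ (2 * m + 1)) ^ 2 - 1 := by
      rw [Nat.card_congr (Equiv.subtypeEquivRight h3)]
      have e2 : Nat.card {x : K × K // x ≠ 0} = (3 ^ (2 * m + 1)) ^ 2 - 1 := by
        rw [Nat.card_eq_fintype_card, Fintype.card_subtype_compl, Fintype.card_subtype_eq, Fintype.card_prod,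
          ← Nat.card_eq_fintype_card, hK, pow_two]
      rw [← e2]
      exact Nat.card_congr ⟨fun p => ⟨p.1.2, fun e => p.2.2 (Prod.ext p.2.1 e)⟩,
        fun x => ⟨(0, x.1), rfl, fun e => x.2 (congrArg Prod.snd e)⟩,
        fun p => Subtype.ext (Prod.ext p.2.1.symm rfl), fun _ => rfl⟩
    rw [hc] at e
    refine Nat.eq_of_mul_eq_mul_right hq0 (e.trans ?_)
    ring
  · have e := hcount 9 (by norm_num) fun g hg => orderOf_dvd_iff_pow_eq_one.1 (by rw [hg])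
    have hc : Nat.card {p : K × K × K // orderOf (f p).1 = 9} =
        (3 ^ (2 * m + 1)) ^ 2 * (3 ^ (2 * m + 1) - 1) := by
      rw [Nat.card_congr (Equiv.subtypeEquivRight h9)]
      have e2 : Nat.card ({x : K // x ≠ 0} × (K × K)) = (3 ^ (2 * m + 1)) ^ 2 * (3 ^ (2 * m + 1) - 1) := by
        rw [Nat.card_prod, Nat.card_prod, Nat.card_eq_fintype_card, Fintype.card_subtype_compl,
          Fintype.card_subtype_eq, ← Nat.card_eq_fintype_card, hK, pow_two]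
        ring
      rw [← e2]
      exact Nat.card_congr ⟨fun p => (⟨p.1.1, p.2⟩, p.1.2), fun x => ⟨(x.1.1, x.2), x.1.2⟩, fun _ => rfl, fun _ => rfl⟩
    rw [hc] at e
    refine Nat.eq_of_mul_eq_mul_right hq0 (e.trans ?_)
    ring

include h in
theorem count_two_six (hm : 1 ≤ m) :
    Nat.card {g : ↥G₁ // orderOf g = 2} =
        (3 ^ (2 * m + 1)) ^ 2 * ((3 ^ (2 * m + 1)) ^ 2 - 3 ^ (2 * m + 1) + 1) ∧
      Nat.card {g : ↥G₁ // orderOf g = 6} =
        (3 ^ (2 * m + 1)) ^ 2 * (3 ^ (2 * m + 1) - 1) * ((3 ^ (2 * m + 1)) ^ 3 + 1) := by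
  classical
  have := h.finite
  have := h.char
  let := Fintype.ofFinite K
  rw [cox_value]
  have hI : Nat.card {g : ↥G₁ // orderOf g = 2} = (3 ^ (2 * m + 1)) ^ 2 * nCox m := by
    have e := card_involutions h hm
    rw [card_eq h] at e
    refine Nat.eq_of_mul_eq_mul_right (?_ : 0 < 8 * 3 ^ (2 * m + 1) * nSplit m * nEll m) (e.trans (by ring))
    have := (nSplit_ge hm).1
    have := (nSplit_ge hm).2.1
    positivity
  refine ⟨hI, ?_⟩
  have hcomm3 : ∀ t : ↥G₁, orderOf t = 2 →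
      Nat.card {y : ↥G₁ // orderOf y = 3 ∧ y * t = t * y} = (3 ^ (2 * m + 1)) ^ 2 - 1 := by
    intro t ht
    obtain ⟨ι, hinj, hι, -⟩ := card_centralizer_involution h hm ht
    let := Fintype.ofFinite {x : ↥G₁ // x * t = t * x ∧ x ^ 9 = 1}
    have e : Nat.card {x : {x : ↥G₁ // x * t = t * x ∧ x ^ 9 = 1} // x ≠ ⟨1, by simp, one_pow _⟩} =
        (3 ^ (2 * m + 1)) ^ 2 - 1 := by
      rw [Nat.card_eq_fintype_card, Fintype.card_subtype_compl, Fintype.card_subtype_eq, ← Nat.card_eq_fintype_card,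
        card_three_commuting h hm ht]
    rw [← e]
    refine Nat.card_congr ⟨fun y => ⟨⟨y.1, y.2.2, orderOf_dvd_iff_pow_eq_one.1 (by rw [y.2.1]; norm_num)⟩,
        fun e => ?_⟩, fun x => ⟨x.1.1, ?_, x.1.2.1⟩, fun _ => rfl, fun _ => rfl⟩
    · have h1 : y.1 = 1 := congrArg Subtype.val e
      have h2 := y.2.1
      rw [h1, orderOf_one] at h2
      norm_num at h2
    · have : Fact (Nat.Prime 3) := ⟨Nat.prime_three⟩
      refine orderOf_eq_prime ?_ (fun e => x.2 (Subtype.ext e))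
      obtain ⟨v, hv, hg⟩ := iota_odd h hinj hι (n := 9) (by decide) x.1.2.2 x.1.2.1
      have hv3 : v ^ 3 = 1 := by
        obtain ⟨w, rfl, hw⟩ := Cfsg.Agent.Suzuki.PSLTorus.exists_lift (n := 9) (by decide) hv
        rw [← map_pow, Cfsg.Agent.Suzuki.PSLTorus.cube_of_trace_two
          (Cfsg.Agent.Suzuki.PSLTorus.trace_two_of_pow (k := 2) (by norm_num; exact hw)), map_one]
      rw [hg, ← map_pow, Prod.pow_mk, one_pow, hv3]
      exact map_one ι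
  have e6 : Nat.card {g : ↥G₁ // orderOf g = 6} =
      Nat.card {g : ↥G₁ // orderOf g = 2} * ((3 ^ (2 * m + 1)) ^ 2 - 1) := by
    rw [show (6 : ℕ) = 2 * 3 from rfl, card_double_sigma (by decide : Odd 3),
      ← card_pairs (fun (t : {t : ↥G₁ // orderOf t = 2}) y => orderOf y = 3 ∧ y * t.1 = t.1 * y) _
        fun t => hcomm3 t.1 t.2]
    exact Nat.card_congr ⟨fun p => ⟨(⟨p.2.1, p.2.2.1⟩, p.1.1), p.1.2, p.2.2.2⟩,
      fun p => ⟨⟨p.1.2, p.2.1⟩, ⟨p.1.1.1, p.1.1.2, p.2.2⟩⟩, fun _ => rfl, fun _ => rfl⟩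
  rw [e6, hI, sq_sub_one, cube_add_one]
  ring

include h in
theorem all_counts (hm : 1 ≤ m) :
    Nat.card {g : ↥G₁ // orderOf g = 2} = (3 ^ (2 * m + 1)) ^ 2 * ((3 ^ (2 * m + 1)) ^ 2 - 3 ^ (2 * m + 1) + 1) ∧
    Nat.card {g : ↥G₁ // orderOf g = 3} = ((3 ^ (2 * m + 1)) ^ 2 - 1) * ((3 ^ (2 * m + 1)) ^ 3 + 1) ∧
    Nat.card {g : ↥G₁ // orderOf g = 6} = (3 ^ (2 * m + 1)) ^ 2 * (3 ^ (2 * m + 1) - 1) * ((3 ^ (2 * m + 1)) ^ 3 + 1) ∧
    Nat.card {g : ↥G₁ // orderOf g = 9} = (3 ^ (2 * m + 1)) ^ 2 * (3 ^ (2 * m + 1) - 1) * ((3 ^ (2 * m + 1)) ^ 3 + 1) ∧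
    (∀ i : ℕ, 2 < i → i ∣ 3 ^ (2 * m + 1) - 1 →
      2 * Nat.card {g : ↥G₁ // orderOf g = i} = Nat.totient i * (3 ^ (2 * m + 1)) ^ 3 * ((3 ^ (2 * m + 1)) ^ 3 + 1)) ∧
    (∀ i : ℕ, 1 < i → i ∣ (3 ^ (2 * m + 1) + 1) / 4 →
      6 * Nat.card {g : ↥G₁ // orderOf g = i} =
          Nat.totient i * (3 ^ (2 * m + 1)) ^ 3 * (3 ^ (2 * m + 1) - 1) * ((3 ^ (2 * m + 1)) ^ 2 - 3 ^ (2 * m + 1) + 1) ∧
        2 * Nat.card {g : ↥G₁ // orderOf g = 2 * i} =
          Nat.totient i * (3 ^ (2 * m + 1)) ^ 3 * (3 ^ (2 * m + 1) - 1) * ((3 ^ (2 * m + 1)) ^ 2 - 3 ^ (2 * m + 1) + 1)) ∧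
    (∀ i : ℕ, 1 < i → i ∣ 3 ^ (2 * m + 1) - 3 ^ (m + 1) + 1 →
      6 * Nat.card {g : ↥G₁ // orderOf g = i} =
        Nat.totient i * (3 ^ (2 * m + 1)) ^ 3 * ((3 ^ (2 * m + 1)) ^ 2 - 1) * (3 ^ (2 * m + 1) + 3 ^ (m + 1) + 1)) ∧
    (∀ i : ℕ, 1 < i → i ∣ 3 ^ (2 * m + 1) + 3 ^ (m + 1) + 1 →
      6 * Nat.card {g : ↥G₁ // orderOf g = i} =
        Nat.totient i * (3 ^ (2 * m + 1)) ^ 3 * ((3 ^ (2 * m + 1)) ^ 2 - 1) * (3 ^ (2 * m + 1) - 3 ^ (m + 1) + 1)) :=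
  ⟨(count_two_six h hm).1, (count_three_parts h hm).1, (count_two_six h hm).2, (count_three_parts h hm).2,
    fun _ hi hd => count_split h hm hi hd, fun _ hi hd => count_ell h hm hi hd,
    fun _ hi hd => count_cox h hm hi (Or.inl ⟨rfl, rfl⟩) hd,
    fun _ hi hd => count_cox h hm hi (Or.inr ⟨rfl, rfl⟩) hd⟩

end Cfsg.Agent.KnownA.ReeLocal
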