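import Cfsg.Agent.KnownA.Ree.Tori

/-!
Solvable subgroups of the small Ree groups normalise a Sylow subgroup or a torus.
-/

set_option autoImplicit false

universe u

namespace Cfsg.Agent.KnownA.ReeLocal

open Cfsg.Lie Cfsg.Agent.Suzuki.Ree

variable {K : Type u} [Field K] {m : ℕ} (h : Ctx K m)

/-- `G¹` -/
local notation "G₁" => twistedG2 K (3 ^ m)
/-- `PSL₂` -/
local notation "P₂" => Matrix.ProjectiveSpecialLinearGroup (Fin 2) K

/-- the conclusion: a subgroup normalising one of the listed subgroups -/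
def IsLocal (K : Type u) [Field K] (m : ℕ) (S : Subgroup ↥(twistedG2 K (3 ^ m))) : Prop :=
  ∃ A : Subgroup ↥(twistedG2 K (3 ^ m)), S ≤ Subgroup.normalizer (A : Set ↥(twistedG2 K (3 ^ m))) ∧
    ((∃ P : Sylow 2 ↥(twistedG2 K (3 ^ m)), A = P) ∨
     (∃ P : Sylow 3 ↥(twistedG2 K (3 ^ m)), A = P) ∨
     (IsCyclic A ∧ (Nat.card A = (3 ^ (2 * m + 1) - 1) / 2 ∨ Nat.card A = (3 ^ (2 * m + 1) + 1) / 4 ∨
        Nat.card A = 3 ^ (2 * m + 1) - 3 ^ (m + 1) + 1 ∨ Nat.card A = 3 ^ (2 * m + 1) + 3 ^ (m + 1) + 1)))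

include h in
/-- elements of exponent `(q+1)/4` commuting with two involutions of a torus centraliser lie in it -/
theorem mem_centralizer_of_pair (hm : 1 ≤ m) {y x t s : ↥G₁} (hy1 : y ≠ 1) (hy : y ^ nEll m = 1)
    (hx : x ^ nEll m = 1) (ht : orderOf t = 2) (hs : orderOf s = 2) (hst : s * t = t * s) (hne : s ≠ t)
    (hyt : y * t = t * y) (hys : y * s = s * y) (hxt : x * t = t * x) (hxs : x * s = s * x) :
    x ∈ Subgroup.centralizer {y} := by
  classical
  have := h.finite
  have := h.char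
  let := Fintype.ofFinite K
  have hn : Odd (nEll m) := (odd_three m).2.1
  have hq4 : Fintype.card K + 1 = 4 * nEll m := by rw [← Nat.card_eq_fintype_card, h.card, q_add_one h]
  obtain ⟨ι, hinj, hr, hι⟩ := card_centralizer_involution h hm ht
  obtain ⟨z, v, w, hyv, hv, -, hsw, hw, hvw⟩ := involution_coord h hm hinj hr hι hy1 hy hs hys hst hne hyt
  obtain ⟨v', hv', rfl⟩ := iota_odd h hinj hr hn hx hxt
  rw [hsw, ← map_mul, ← map_mul] at hxs
  rw [Subgroup.mem_centralizer_singleton_iff, hyv, ← map_mul, ← map_mul, Prod.mk_mul_mk, Prod.mk_mul_mk,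
    Cfsg.Agent.Suzuki.PSLTorus.commute_of_commute_involution hn hq4 hw hv' hv (congrArg Prod.snd (hinj hxs)) hvw]

include h in
/-- a four-group commutes with an element of a torus of order `(q+1)/4` -/
theorem exists_ell_commuting (hm : 1 ≤ m) {t s : ↥G₁} (ht : orderOf t = 2) (hs : orderOf s = 2)
    (hst : s * t = t * s) (hne : s ≠ t) :
    ∃ y : ↥G₁, y ≠ 1 ∧ y ^ nEll m = 1 ∧ y * t = t * y ∧ y * s = s * y := by
  classical
  have := h.finite
  have := h.char
  let := Fintype.ofFinite K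
  have hn : Odd (nEll m) := (odd_three m).2.1
  have hq4 : Fintype.card K + 1 = 4 * nEll m := by rw [← Nat.card_eq_fintype_card, h.card, q_add_one h]
  obtain ⟨ι, hinj, hr, hι⟩ := card_centralizer_involution h hm ht
  obtain ⟨⟨z, w⟩, rfl⟩ : s ∈ ι.range := by rw [hr]; exact Subgroup.mem_centralizer_singleton_iff.2 hst
  have hw : orderOf w = 2 := by
    have e : ((z, w) : Multiplicative (ZMod 2) × P₂) ^ 2 = 1 := hinj (by
      rw [map_pow, map_one]
      have := pow_orderOf_eq_one (ι (z, w))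
      rwa [hs] at this)
    refine orderOf_eq_prime (congrArg Prod.snd e) fun hw => ?_
    rcases z2_cases z with rfl | rfl
    · rw [hw, Prod.mk_one_one, map_one, orderOf_one] at hs; norm_num at hs
    · exact hne (by rw [hw, hι])
  have hge := (nSplit_ge hm).2.1
  obtain ⟨p, hp, hpn⟩ := Nat.exists_prime_and_dvd (show nEll m ≠ 1 by omega)
  have : Fact p.Prime := ⟨hp⟩
  obtain ⟨⟨v, hvC⟩, hv⟩ := exists_prime_orderOf_dvd_card' (G := ↥(Subgroup.centralizer {w})) p
    (by rw [Cfsg.Agent.Suzuki.PSLTorus.card_centralizer_involution hn hq4 hw]; exact hpn.mul_left 4)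
  rw [Subgroup.orderOf_mk] at hv
  have hvn : v ^ nEll m = 1 := orderOf_dvd_iff_pow_eq_one.1 (hv ▸ hpn)
  have hvy : orderOf (ι (1, v)) = p := by
    rw [orderOf_injective ι hinj, Prod.orderOf, orderOf_one, Nat.lcm_one_left, hv]
  refine ⟨ι (1, v), fun e => hp.ne_one (by rw [← hvy, e, orderOf_one]), ?_,
    Subgroup.mem_centralizer_singleton_iff.1 (hr ▸ ⟨_, rfl⟩), ?_⟩
  · rw [← map_pow, Prod.pow_mk, one_pow, hvn]; exact map_one ι
  · rw [← map_mul, ← map_mul, Prod.mk_mul_mk, Prod.mk_mul_mk, one_mul, mul_one,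
      Subgroup.mem_centralizer_singleton_iff.1 hvC]

include h in
/-- a subgroup normalising an elementary abelian group which is not of order two is local -/
theorem local_of_elementary (hm : 1 ≤ m) {S A : Subgroup ↥G₁} {r : ℕ} (hr : r.Prime) (hA : A ≠ ⊥)
    (hc : ∀ a ∈ A, ∀ b ∈ A, a * b = b * a) (hexp : ∀ a ∈ A, a ^ r = 1)
    (hSA : S ≤ Subgroup.normalizer (A : Set ↥G₁)) (h2 : r = 2 → 2 < Nat.card A) : IsLocal K m S := by
  classical
  have := h.finite
  have : Fact r.Prime := ⟨hr⟩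
  have hpg : IsPGroup r ↥A := fun a => ⟨1, by rw [pow_one]; exact Subtype.ext (hexp a a.2)⟩
  obtain ⟨x, hx, hx1⟩ := (Subgroup.bot_or_exists_ne_one A).resolve_left hA
  have hxo : orderOf x = r := orderOf_eq_prime (hexp x hx) hx1
  rcases eq_or_ne r 2 with hr2 | hr2
  · subst hr2
    obtain ⟨P, hP⟩ := hpg.exists_le_sylow
    have h8 : Nat.card P = 8 := (card_sylow_two h hm P).1
    have hdvd : Nat.card A ∣ 2 ^ 3 := by
      have := Subgroup.card_dvd_of_le hP
      rw [h8] at this
      exact this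
    obtain ⟨k, hk, hkA⟩ := (Nat.dvd_prime_pow Nat.prime_two).1 hdvd
    have hk2 : 2 ≤ k := by
      by_contra hlt
      have := h2 rfl
      interval_cases k <;> omega
    rcases (show k = 2 ∨ k = 3 by omega) with rfl | rfl
    · -- four-group
      obtain ⟨s, hs, hs1, hsx⟩ : ∃ s ∈ A, s ≠ 1 ∧ s ≠ x := by
        by_contra hcon
        push Not at hcon
        have : Nat.card A ≤ Nat.card (Bool) := Nat.card_le_card_of_injective (fun a : ↥A => decide (a.1 = 1))
          (fun a b e => by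
            simp only [decide_eq_decide] at e
            by_cases ha : a.1 = 1
            · exact Subtype.ext (ha.trans (e.1 ha).symm)
            · exact Subtype.ext ((hcon a a.2 ha).trans (hcon b b.2 (fun hb => ha (e.2 hb))).symm))
        rw [hkA] at this
        norm_num at this
      have hso : orderOf s = 2 := orderOf_eq_prime (hexp s hs) hs1
      obtain ⟨y, hy1, hy, hyx, hys⟩ := exists_ell_commuting h hm hxo hso (hc s hs x hx) hsx
      have hcomm := fun z h1 h2 => (ell_centralizer h hm (y := z) h1 h2).1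
      obtain ⟨T, hT⟩ := exists_torusOf hcomm hy1 hy
      obtain ⟨hcT, hTc⟩ := ell_data h hm hy1 hy hT
      -- `y` commutes with all of `A`
      have hAy : ∀ a ∈ A, y * a = a * y := by
        have hcard : Nat.card A ≤ Nat.card ↥(A ⊓ Subgroup.centralizer {y}) := by
          have hd : Nat.card ↥(A ⊓ Subgroup.centralizer {y}) ∣ 2 ^ 2 := by
            rw [← hkA]; exact Subgroup.card_dvd_of_le inf_le_left
          obtain ⟨l, hl, hlc⟩ := (Nat.dvd_prime_pow Nat.prime_two).1 hd
          have h3 : 3 ≤ Nat.card ↥(A ⊓ Subgroup.centralizer {y}) := by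
            have hm3 : ∀ i : Fin 3, ![1, x, s] i ∈ A ⊓ Subgroup.centralizer {y} := by
              intro i
              fin_cases i
              · exact one_mem _
              · exact ⟨hx, Subgroup.mem_centralizer_singleton_iff.2 hyx.symm⟩
              · exact ⟨hs, Subgroup.mem_centralizer_singleton_iff.2 hys.symm⟩
            have := Nat.card_le_card_of_injective (fun i : Fin 3 =>
              (⟨![1, x, s] i, hm3 i⟩ : ↥(A ⊓ Subgroup.centralizer {y}))) (by
              intro i i' e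
              have e' := congrArg Subtype.val e
              fin_cases i <;> fin_cases i' <;> first | rfl | (exfalso; simp at e'; first
                | exact hx1 e' | exact hx1 e'.symm | exact hs1 e' | exact hs1 e'.symm
                | exact hsx e' | exact hsx e'.symm))
            simpa using this
          rw [hlc] at h3 ⊢
          rw [hkA]
          interval_cases l <;> omega
        intro a ha
        have e := Subgroup.eq_of_le_of_card_ge inf_le_left hcard
        exact (Subgroup.mem_centralizer_singleton_iff.1 (e.ge ha).2).symm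
      refine ⟨T, fun g hg => ?_, Or.inr (Or.inr ⟨hcT, Or.inr (Or.inl hTc)⟩)⟩
      refine (normalizer_torus hcomm hy1 hy hT hcT).2.2 g ((hT _).2 ⟨?_, by rw [conj_pow, conj_eq_one_iff]; exact hy⟩)
      have hgA : ∀ a ∈ A, g * y * g⁻¹ * a = a * (g * y * g⁻¹) := by
        intro a ha
        have hb : g⁻¹ * a * g ∈ A := (Subgroup.mem_normalizer_iff.1 (hSA hg) _).2 (by group; exact ha)
        calc g * y * g⁻¹ * a = g * (y * (g⁻¹ * a * g)) * g⁻¹ := by group
          _ = g * ((g⁻¹ * a * g) * y) * g⁻¹ := by rw [hAy _ hb]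
          _ = a * (g * y * g⁻¹) := by group
      exact mem_centralizer_of_pair h hm hy1 hy (by rw [conj_pow, conj_eq_one_iff]; exact hy) hxo hso
        (hc s hs x hx) hsx hyx hys (hgA x hx) (hgA s hs)
    · refine ⟨A, hSA, Or.inl ⟨P, Subgroup.eq_of_le_of_card_ge hP (by rw [hkA, h8]; norm_num)⟩⟩
  rcases eq_or_ne r 3 with hr3 | hr3
  · subst hr3
    obtain ⟨P, hP⟩ := hpg.exists_le_sylow
    refine ⟨P, fun g hg => ?_, Or.inr (Or.inl ⟨P, rfl⟩)⟩
    have hgP : g • P = P := by
      by_contra hne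
      have hbot := sylow_three_ti h (g • P) P hne
      have : g * x * g⁻¹ ∈ ((g • P : Sylow 3 ↥G₁) : Subgroup ↥G₁) ⊓ (P : Subgroup ↥G₁) := by
        refine ⟨?_, hP ((Subgroup.mem_normalizer_iff.1 (hSA hg) x).1 hx)⟩
        rw [Sylow.coe_subgroup_smul]
        exact Subgroup.smul_mem_pointwise_smul _ _ _ (hP hx)
      rw [hbot, Subgroup.mem_bot, conj_eq_one_iff] at this
      exact hx1 this
    exact Sylow.smul_eq_iff_mem_normalizer.1 hgP
  have hr5 : 3 < r := by
    have := hr.two_le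
    omega
  obtain ⟨N, hN, hrN⟩ : ∃ N, IsTorusExp m N ∧ r ∣ N := by
    have hd : r ∣ 8 * (3 ^ (2 * m + 1)) ^ 3 * nSplit m * nEll m * nCox m := by
      rw [← card_eq h, ← hxo]; exact orderOf_dvd_natCard x
    rcases hr.dvd_mul.1 hd with hd | hd
    · rcases hr.dvd_mul.1 hd with hd | hd
      · rcases hr.dvd_mul.1 hd with hd | hd
        · rcases hr.dvd_mul.1 hd with hd | hd
          · exact absurd ((Nat.prime_dvd_prime_iff_eq hr Nat.prime_two).1
              (hr.dvd_of_dvd_pow (show r ∣ 2 ^ 3 from hd))) hr2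
          · exact absurd ((Nat.prime_dvd_prime_iff_eq hr Nat.prime_three).1
              (hr.dvd_of_dvd_pow (hr.dvd_of_dvd_pow hd))) hr3
        · exact ⟨_, Or.inl rfl, hd⟩
      · exact ⟨_, Or.inr (Or.inl rfl), hd⟩
    · exact ⟨_, Or.inr (Or.inr rfl), hd⟩
  have hxN : x ^ N = 1 := orderOf_dvd_iff_pow_eq_one.1 (hxo ▸ hrN)
  have hcomm := fun z h1 h2 => torus_comm h hm hN (y := z) h1 h2
  obtain ⟨T, hT⟩ := exists_torusOf hcomm hx1 hxN
  have hcT : IsCyclic ↥T := torus_cyclic h hN T
    (fun a ha b hb => hcomm x hx1 hxN a ((hT a).1 ha).1 b ((hT b).1 hb).1) (fun a ha => ((hT a).1 ha).2)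
  have hAT : A ≤ T := fun a ha => (hT a).2 ⟨Subgroup.mem_centralizer_singleton_iff.2 (hc a ha x hx),
    orderOf_dvd_iff_pow_eq_one.1 ((orderOf_dvd_of_pow_eq_one (hexp a ha)).trans hrN)⟩
  refine ⟨T, hSA.trans ((normalizer_torus hcomm hx1 hxN hT hcT).1 A hAT hA).le, Or.inr (Or.inr ⟨hcT, ?_⟩)⟩
  rcases hN with rfl | rfl | rfl
  · exact Or.inl (split_data h hm hx1 hxN hT).2.1
  · exact Or.inr (Or.inl (ell_data h hm hx1 hxN hT).2)
  · have e : T = Subgroup.centralizer {x} := Subgroup.ext fun z => (hT z).trans (cox_torus h hm hx1 hxN z).symm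
    obtain ⟨x₁, x₂, -, -, -, -, e1, e2, -, -, hall⟩ := cox_tori h hm
    rw [e]
    rcases hall x hx1 hxN with e3 | e3
    · exact Or.inr (Or.inr (Or.inl (e3.trans e1)))
    · exact Or.inr (Or.inr (Or.inr (e3.trans e2)))

include h in
theorem solvable_local (hm : 1 ≤ m) (S : Subgroup ↥G₁) (hS : Group.IsSolvable ↥S) : IsLocal K m S := by
  classical
  have := h.finite
  have : Fact (Nat.Prime 2) := ⟨Nat.prime_two⟩
  by_cases hS0 : S = ⊥
  · subst hS0
    obtain ⟨P⟩ : Nonempty (Sylow 2 ↥G₁) := inferInstance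
    exact ⟨P, bot_le, Or.inl ⟨P, rfl⟩⟩
  obtain ⟨r, hr, A, hA, hc, hexp, hSA⟩ := exists_elementary hS hS0
  by_cases hlarge : r = 2 → 2 < Nat.card A
  · exact local_of_elementary h hm hr hA hc hexp hSA hlarge
  push Not at hlarge
  obtain ⟨rfl, hle⟩ := hlarge
  have h2A : Nat.card A = 2 := by
    have : 1 < Nat.card A := Finite.one_lt_card_iff_nontrivial.2 ((Subgroup.nontrivial_iff_ne_bot A).2 hA)
    omega
  obtain ⟨t, ht, ht1⟩ := (Subgroup.bot_or_exists_ne_one A).resolve_left hA
  have hto : orderOf t = 2 := orderOf_eq_prime (hexp t ht) ht1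
  have hAt : ∀ a ∈ A, a = 1 ∨ a = t := by
    intro a ha
    by_contra hcon
    push Not at hcon
    have hm3 : ∀ i : Fin 3, ![1, t, a] i ∈ A := by
      intro i; fin_cases i
      exacts [one_mem _, ht, ha]
    have := Nat.card_le_card_of_injective (fun i : Fin 3 => (⟨![1, t, a] i, hm3 i⟩ : ↥A)) (by
      intro i i' e
      have e' := congrArg Subtype.val e
      fin_cases i <;> fin_cases i' <;> first | rfl | (exfalso; simp at e'; first
        | exact ht1 e' | exact ht1 e'.symm | exact hcon.1 e' | exact hcon.1 e'.symm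
        | exact hcon.2 e' | exact hcon.2 e'.symm))
    rw [h2A] at this
    simp at this
  have hSC : S ≤ Subgroup.centralizer {t} := by
    intro g hg
    rw [Subgroup.mem_centralizer_singleton_iff, ← mul_inv_eq_iff_eq_mul]
    exact (hAt _ ((Subgroup.mem_normalizer_iff.1 (hSA hg) t).1 ht)).resolve_left fun e => ht1 (conj_eq_one_iff.1 e)
  obtain ⟨ι, hinj, hι, hιt⟩ := card_centralizer_involution h hm hto
  let π : ↥(S.comap ι) →* P₂ := (MonoidHom.snd (Multiplicative (ZMod 2)) P₂).comp (S.comap ι).subtype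
  have hS' : Group.IsSolvable ↥π.range := by
    have hinj' : Function.Injective (ι.subgroupComap S) := fun a b e =>
      Subtype.ext (hinj (congrArg Subtype.val e))
    have : Group.IsSolvable ↥(S.comap ι) := Group.isSolvable_of_isSolvable_injective hinj'
    exact Group.isSolvable_of_surjective π.rangeRestrict_surjective
  have hπ : ∀ g ∈ S, ∃ z u, g = ι (z, u) ∧ u ∈ π.range := by
    intro g hg
    obtain ⟨⟨z, u⟩, e⟩ : g ∈ ι.range := hι ▸ hSC hg
    exact ⟨z, u, e.symm, ⟨⟨(z, u), Subgroup.mem_comap.2 (e ▸ hg)⟩, rfl⟩⟩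
  by_cases hp : π.range = ⊥
  · obtain ⟨P, hP⟩ := (IsPGroup.of_card (p := 2) (n := 1) (h2A.trans (pow_one 2).symm)).exists_le_sylow
    refine ⟨P, ?_, Or.inl ⟨P, rfl⟩⟩
    refine le_trans ?_ Subgroup.le_normalizer
    intro g hg
    obtain ⟨z, u, e, hu⟩ := hπ g hg
    rw [hp, Subgroup.mem_bot] at hu
    subst hu
    refine hP ?_
    rcases z2_cases z with rfl | rfl
    · rw [e, Prod.mk_one_one, map_one]; exact one_mem _
    · rw [e, hιt]; exact ht
  obtain ⟨p, hpp, B, hB, hBc, hBexp, hBn⟩ := exists_elementary hS' hp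
  -- lift
  have hlift : ∀ Z : Subgroup (Multiplicative (ZMod 2)), (∀ z ∈ Z, z ^ p = 1) →
      (p = 2 → 2 < Nat.card ↥((Z.prod B).map ι)) → IsLocal K m S := by
    intro Z hZ hsz
    refine local_of_elementary (A := (Z.prod B).map ι) h hm hpp ?_ ?_ ?_ ?_ hsz
    · intro e
      apply hB
      rw [Subgroup.eq_bot_iff_forall]
      intro b hb
      have := e.le (Subgroup.mem_map_of_mem ι (show ((1 : Multiplicative (ZMod 2)), b) ∈ Z.prod B from
        ⟨one_mem _, hb⟩))
      rw [Subgroup.mem_bot, ← map_one ι] at this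
      exact congrArg Prod.snd (hinj this)
    · rintro _ ⟨⟨a, b⟩, hab, rfl⟩ _ ⟨⟨a', b'⟩, hab', rfl⟩
      rw [← map_mul, ← map_mul, Prod.mk_mul_mk, Prod.mk_mul_mk, mul_comm a a', hBc b hab.2 b' hab'.2]
    · rintro _ ⟨⟨a, b⟩, hab, rfl⟩
      rw [← map_pow, Prod.pow_mk, hZ a hab.1, hBexp b hab.2]
      exact map_one ι
    · have step : ∀ g ∈ S, ∀ x ∈ (Z.prod B).map ι, g * x * g⁻¹ ∈ (Z.prod B).map ι := by
        rintro g hg _ ⟨⟨a, b⟩, hab, rfl⟩
        obtain ⟨z, u, rfl, hu⟩ := hπ g hg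
        refine ⟨(a, u * b * u⁻¹), ⟨hab.1, (Subgroup.mem_normalizer_iff.1 (hBn hu) b).1 hab.2⟩, ?_⟩
        rw [← map_inv, ← map_mul, ← map_mul, Prod.inv_mk, Prod.mk_mul_mk, Prod.mk_mul_mk, mul_comm z a,
          mul_inv_cancel_right]
      intro g hg
      refine Subgroup.mem_normalizer_iff.2 fun x => ⟨step g hg x, fun hx => ?_⟩
      have := step g⁻¹ (inv_mem hg) _ hx
      rwa [show g⁻¹ * (g * x * g⁻¹) * g⁻¹⁻¹ = x by group] at this
  by_cases hp2 : p = 2
  · subst hp2
    refine hlift ⊤ (fun z _ => by rw [pow_two]; exact z2_sq z) fun _ => ?_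
    rw [Subgroup.card_map_of_injective hinj, Nat.card_congr (Subgroup.prodEquiv _ _).toEquiv, Nat.card_prod,
      Subgroup.card_top, show Nat.card (Multiplicative (ZMod 2)) = 2 by simp]
    have : 1 < Nat.card B := Finite.one_lt_card_iff_nontrivial.2 ((Subgroup.nontrivial_iff_ne_bot B).2 hB)
    omega
  · exact hlift ⊥ (fun z hz => by rw [Subgroup.mem_bot.1 hz, one_pow]) fun e => absurd e hp2

end Cfsg.Agent.KnownA.ReeLocal
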