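import Cfsg.Agent.KnownA.Ree.Generic
import Cfsg.Agent.Suzuki.ReeSpectrum

/-!
Cyclic subgroups of the tori of the small Ree groups, their conjugacy and their centralisers.
-/

set_option autoImplicit false

universe u

namespace Cfsg.Agent.KnownA.ReeLocal

open Cfsg.Lie Cfsg.Agent.Suzuki.Ree

variable {K : Type u} [Field K] {m : ℕ} (h : Ctx K m)

/-- `G¹` -/
local notation "G₁" => twistedG2 K (3 ^ m)

/-- the three torus exponents -/
def IsTorusExp (m N : ℕ) : Prop := N = nSplit m ∨ N = nEll m ∨ N = nCox m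

theorem torus_exp_prop {N : ℕ} (hN : IsTorusExp m N) : Odd N ∧ ¬ 3 ∣ N := by
  rcases hN with rfl | rfl | rfl
  exacts [⟨(odd_three m).1, (three_not_dvd m).1⟩, ⟨(odd_three m).2.1, (three_not_dvd m).2.1⟩,
    ⟨(odd_three m).2.2, (three_not_dvd m).2.2⟩]

include h in
theorem torus_comm (hm : 1 ≤ m) {N : ℕ} (hN : IsTorusExp m N) {y : ↥G₁} (hy1 : y ≠ 1) (hy : y ^ N = 1) :
    ∀ a ∈ Subgroup.centralizer {y}, ∀ b ∈ Subgroup.centralizer {y}, a * b = b * a := by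
  rcases hN with rfl | rfl | rfl
  exacts [(split_centralizer h hy1 hy).1, (ell_centralizer h hm hy1 hy).1, (cox_centralizer h hm hy1 hy).1]

include h in
theorem torus_cyclic {N : ℕ} (hN : IsTorusExp m N) (A : Subgroup ↥G₁)
    (hc : ∀ a ∈ A, ∀ b ∈ A, a * b = b * a) (hA : ∀ a ∈ A, a ^ N = 1) : IsCyclic ↥A :=
  isCyclic_of_comm h A hc fun _r hr hd =>
    prime_gt_three (torus_exp_prop hN).1 (torus_exp_prop hN).2 hr (prime_dvd_of_exponent h hA hr hd)

include h in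
/-- subgroups of prime order above three are conjugate -/
theorem prime_order_conj {p : ℕ} (hp : p.Prime) (hp3 : 3 < p) {x y : ↥G₁} (hx : orderOf x = p)
    (hy : orderOf y = p) : ∃ g : ↥G₁, g * x * g⁻¹ ∈ Subgroup.zpowers y := by
  have := h.finite
  have : Fact p.Prime := ⟨hp⟩
  have hsyl : ∀ u : ↥G₁, orderOf u = p → ∃ S : Sylow p ↥G₁, u ∈ S := fun u hu => by
    obtain ⟨S, hS⟩ := (IsPGroup.of_card (p := p) (n := 1)
      (show Nat.card ↥(Subgroup.zpowers u) = p ^ 1 by rw [Nat.card_zpowers, hu, pow_one])).exists_le_sylow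
    exact ⟨S, hS (Subgroup.mem_zpowers u)⟩
  obtain ⟨S, hS⟩ := hsyl x hx
  obtain ⟨T, hT⟩ := hsyl y hy
  obtain ⟨g, hg⟩ := MulAction.exists_smul_eq ↥G₁ S T
  have hxT : g * x * g⁻¹ ∈ (T : Subgroup ↥G₁) := by
    rw [← hg, Sylow.coe_subgroup_smul]
    exact Subgroup.smul_mem_pointwise_smul _ _ _ hS
  refine ⟨g, mem_zpowers_of_cyclic (sylow_odd_cyclic h hp3 T) hT hxT ?_⟩
  rw [conj_pow, hy, ← hx, pow_orderOf_eq_one, mul_one, mul_inv_cancel]

include h in
/-- cyclic subgroups of a given toral order are conjugate -/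
theorem toral_conj (hm : 1 ≤ m) {N : ℕ} (hN : IsTorusExp m N) {a b : ↥G₁} (hab : orderOf a = orderOf b)
    (hd : orderOf a ∣ N) : ∃ g : ↥G₁, g * a * g⁻¹ ∈ Subgroup.zpowers b := by
  have := h.finite
  by_cases h1 : orderOf a = 1
  · exact ⟨1, by rw [orderOf_eq_one_iff.1 h1]; simp⟩
  obtain ⟨p, hp, hpd⟩ := Nat.exists_prime_and_dvd h1
  have hp3 := prime_gt_three (torus_exp_prop hN).1 (torus_exp_prop hN).2 hp (hpd.trans hd)
  have hk : orderOf a / p ≠ 0 := Nat.div_ne_zero_iff.2 ⟨hp.ne_zero, Nat.le_of_dvd (orderOf_pos a) hpd⟩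
  set k := orderOf a / p
  have hu : ∀ z : ↥G₁, orderOf z = orderOf a → orderOf (z ^ k) = p := fun z hz => by
    rw [orderOf_pow_of_dvd hk (hz ▸ Nat.div_dvd_of_dvd hpd), hz, Nat.div_div_self hpd (orderOf_pos a).ne']
  obtain ⟨g, hg⟩ := prime_order_conj h hp hp3 (hu a rfl) (hu b hab.symm)
  refine ⟨g, ?_⟩
  set v := b ^ k
  have hv1 : v ≠ 1 := fun e => hp.ne_one (by rw [← hu b hab.symm, show b ^ k = 1 from e, orderOf_one])
  have hvN : v ^ N = 1 :=
    orderOf_dvd_iff_pow_eq_one.1 (by rw [hu b hab.symm]; exact hpd.trans hd)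
  have hcomm := fun y h1 h2 => torus_comm h hm hN (y := y) h1 h2
  obtain ⟨A, hA⟩ := exists_torusOf hcomm hv1 hvN
  have hcA : IsCyclic ↥A := torus_cyclic h hN A (fun x hx y hy => hcomm v hv1 hvN x ((hA x).1 hx).1 y ((hA y).1 hy).1)
    (fun x hx => ((hA x).1 hx).2)
  have hw1 : g * a ^ k * g⁻¹ ≠ 1 := fun e => hp.ne_one (by rw [← hu a rfl, conj_eq_one_iff.1 e, orderOf_one])
  have hwC : g * a ^ k * g⁻¹ ∈ Subgroup.centralizer {v} :=
    Subgroup.zpowers_le.2 (Subgroup.mem_centralizer_singleton_iff.2 rfl) hg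
  have hwN : (g * a ^ k * g⁻¹) ^ N = 1 := by
    rw [conj_pow, conj_eq_one_iff]
    exact orderOf_dvd_iff_pow_eq_one.1 (by rw [hu a rfl]; exact hpd.trans hd)
  have hCw := centralizer_torus hcomm hv1 hvN hwC hwN hw1
  refine mem_zpowers_of_cyclic hcA ((hA b).2 ⟨Subgroup.mem_centralizer_singleton_iff.2 ((Commute.refl b).pow_right k).eq,
    orderOf_dvd_iff_pow_eq_one.1 (hab ▸ hd)⟩) ((hA _).2 ⟨?_, ?_⟩) ?_
  · rw [← hCw, mem_centralizer_conj, Subgroup.mem_centralizer_singleton_iff]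
    exact ((Commute.refl a).pow_right k).eq
  · rw [conj_pow, conj_eq_one_iff]; exact orderOf_dvd_iff_pow_eq_one.1 hd
  · rw [conj_pow, ← hab, pow_orderOf_eq_one, mul_one, mul_inv_cancel]

include h in
/-- the torus through a toral element, and its normaliser -/
theorem toral_normalizer (hm : 1 ≤ m) {N : ℕ} (hN : IsTorusExp m N) {a : ↥G₁} (ha : a ≠ 1) (haN : a ^ N = 1) :
    ∃ T : Subgroup ↥G₁, (∀ x, x ∈ T ↔ x ∈ Subgroup.centralizer {a} ∧ x ^ N = 1) ∧ IsCyclic ↥T ∧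
      Subgroup.normalizer (Subgroup.zpowers a : Set ↥G₁) = Subgroup.normalizer (T : Set ↥G₁) := by
  have := h.finite
  have hcomm := fun y h1 h2 => torus_comm h hm hN (y := y) h1 h2
  obtain ⟨T, hT⟩ := exists_torusOf hcomm ha haN
  have hcT : IsCyclic ↥T := torus_cyclic h hN T (fun x hx y hy => hcomm a ha haN x ((hT x).1 hx).1 y ((hT y).1 hy).1)
    (fun x hx => ((hT x).1 hx).2)
  refine ⟨T, hT, hcT, (normalizer_torus hcomm ha haN hT hcT).1 _ (Subgroup.zpowers_le.2 ((hT a).2 ⟨?_, haN⟩))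
    (fun e => ha (Subgroup.zpowers_eq_bot.1 e))⟩
  exact Subgroup.mem_centralizer_singleton_iff.2 rfl

theorem coprime_cox_pair (m : ℕ) :
    Nat.Coprime (3 ^ (2 * m + 1) - 3 ^ (m + 1) + 1) (3 ^ (2 * m + 1) + 3 ^ (m + 1) + 1) ∧
      (3 ^ (2 * m + 1) - 3 ^ (m + 1) + 1) * (3 ^ (2 * m + 1) + 3 ^ (m + 1) + 1) = nCox m := by
  set q := 3 ^ (2 * m + 1) with hq
  set r := 3 ^ (m + 1) with hr
  have hrq : r ≤ q := Nat.pow_le_pow_right (by norm_num) (by omega)
  have hr2 : r * r = 3 * q := by rw [hr, hq, ← pow_add, ← pow_succ']; congr 1; ring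
  have hq1 : 1 ≤ q := Nat.one_le_pow _ _ (by norm_num)
  have hmul : (q - r + 1) * (q + r + 1) = nCox m := by
    rw [nCox, ← hq, ← Nat.cast_inj (R := ℤ)]
    have hr2' : (r : ℤ) * r = 3 * q := by exact_mod_cast hr2
    push_cast [hrq, hq1]
    linear_combination -hr2'
  refine ⟨Nat.coprime_of_dvd fun p hp h1 h2 => ?_, hmul⟩
  have hpc : p ∣ nCox m := hmul ▸ Dvd.dvd.mul_right h1 _
  have hp3 := prime_gt_three (odd_three m).2.2 (three_not_dvd m).2.2 hp hpc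
  have h2r : p ∣ 2 * 3 ^ (m + 1) := by
    have := Nat.dvd_sub h2 h1
    rwa [show q + r + 1 - (q - r + 1) = 2 * r by omega] at this
  rcases hp.dvd_mul.1 h2r with e | e
  · have := (Nat.prime_dvd_prime_iff_eq hp Nat.prime_two).1 e; omega
  · have := (Nat.prime_dvd_prime_iff_eq hp Nat.prime_three).1 (hp.dvd_of_dvd_pow e); omega

include h in
/-- the normaliser of a cyclic subgroup of an order dividing `q ∓ r + 1` -/
theorem cox_card_normalizer (hm : 1 ≤ m) {a : ↥G₁} (ha : a ≠ 1) {n n' : ℕ}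
    (hn : (n = 3 ^ (2 * m + 1) - 3 ^ (m + 1) + 1 ∧ n' = 3 ^ (2 * m + 1) + 3 ^ (m + 1) + 1) ∨
      (n' = 3 ^ (2 * m + 1) - 3 ^ (m + 1) + 1 ∧ n = 3 ^ (2 * m + 1) + 3 ^ (m + 1) + 1))
    (had : orderOf a ∣ n) :
    a ^ nCox m = 1 ∧ Nat.card ↥(Subgroup.centralizer {a}) = n ∧
      Nat.card ↥(Subgroup.normalizer (Subgroup.zpowers a : Set ↥G₁)) = 6 * n := by
  have := h.finite
  obtain ⟨hco, hmul⟩ := coprime_cox_pair m
  have hco' : Nat.Coprime n n' ∧ n * n' = nCox m := by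
    rcases hn with ⟨rfl, rfl⟩ | ⟨rfl, rfl⟩
    exacts [⟨hco, hmul⟩, ⟨hco.symm, by rw [mul_comm, hmul]⟩]
  have haN : a ^ nCox m = 1 := orderOf_dvd_iff_pow_eq_one.1 (had.trans (Dvd.intro _ hco'.2))
  obtain ⟨x₁, x₂, h11, h12, h21, h22, e1, e2, n1, n2, hall⟩ := cox_tori h hm
  obtain ⟨xn, hxn1, hxn, exn, nxn, exo⟩ : ∃ xn : ↥G₁, xn ≠ 1 ∧ xn ^ nCox m = 1 ∧
      Nat.card ↥(Subgroup.centralizer {xn}) = n ∧
      Nat.card ↥(Subgroup.normalizer ((Subgroup.centralizer {xn}) : Set ↥G₁)) = 6 * n ∧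
      (Nat.card ↥(Subgroup.centralizer {a}) = n ∨ Nat.card ↥(Subgroup.centralizer {a}) = n') := by
    rcases hn with ⟨rfl, rfl⟩ | ⟨rfl, rfl⟩
    · exact ⟨x₁, h11, h12, e1, n1, by simpa [e1, e2] using hall a ha haN⟩
    · exact ⟨x₂, h21, h22, e2, n2, by simpa [e1, e2, or_comm] using hall a ha haN⟩
  have haC : a ∈ Subgroup.centralizer {a} := Subgroup.mem_centralizer_singleton_iff.2 rfl
  have hca : Nat.card ↥(Subgroup.centralizer {a}) = n := exo.resolve_right fun e => by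
    have := Nat.dvd_gcd had (e ▸ Subgroup.orderOf_dvd_natCard _ haC)
    rw [hco'.1, Nat.dvd_one, orderOf_eq_one_iff] at this
    exact ha this
  refine ⟨haN, hca, ?_⟩
  -- conjugate to a subgroup of the model torus
  let C := Subgroup.centralizer {xn}
  have hcyc := (cox_centralizer h hm hxn1 hxn).2.1
  obtain ⟨c, hc⟩ := exists_of_cyclic C hcyc
  obtain ⟨⟨b, hbC⟩, hb⟩ : ∃ b : ↥C, orderOf b = orderOf a := by
    obtain ⟨γ, hγ⟩ := hcyc.exists_generator
    refine ⟨γ ^ (n / orderOf a), ?_⟩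
    have ho : orderOf γ = n := (orderOf_eq_card_of_forall_mem_zpowers hγ).trans exn
    rw [← ho]
    exact orderOf_pow_orderOf_div (orderOf_pos γ).ne' (ho ▸ had)
  rw [Subgroup.orderOf_mk] at hb
  obtain ⟨g, hg⟩ := toral_conj h hm (Or.inr (Or.inr rfl) : IsTorusExp m (nCox m)) hb.symm
    (orderOf_dvd_iff_pow_eq_one.2 haN)
  have e : (Subgroup.zpowers a).map (MulAut.conj g).toMonoidHom = Subgroup.zpowers b := by
    rw [MonoidHom.map_zpowers]
    exact zpowers_eq_of_mem hg (by rw [MulEquiv.coe_toMonoidHom, MulEquiv.orderOf_eq, hb])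
  have e2' : Subgroup.normalizer (Subgroup.zpowers b : Set ↥G₁) = Subgroup.normalizer (C : Set ↥G₁) :=
    (cox_normalizer h hm hxn1 hxn).1 _ (Subgroup.zpowers_le.2 hbC) (fun e => ha (by
      rw [Subgroup.zpowers_eq_bot] at e
      rw [← orderOf_eq_one_iff, ← hb, e, orderOf_one]))
  rw [← nxn, ← e2', ← e, ← Subgroup.map_equiv_normalizer_eq, Subgroup.card_map_of_injective (MulEquiv.injective _)]

include h in
/-- centralisers of subgroups of a cyclic torus -/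
theorem centralizer_subgroups (hm : 1 ≤ m) {N : ℕ} (hN : IsTorusExp m N) {H : Subgroup ↥G₁} (hH : IsCyclic ↥H)
    (hexp : ∀ x ∈ H, x ^ N = 1) (hne : H ≠ ⊥) :
    ∃ y ∈ H, y ≠ 1 ∧ Subgroup.centralizer (H : Set ↥G₁) = Subgroup.centralizer {y} ∧
      ∀ A : Subgroup ↥G₁, A ≤ H → A ≠ ⊥ →
        Subgroup.centralizer (A : Set ↥G₁) = Subgroup.centralizer (H : Set ↥G₁) := by
  have := h.finite
  have hcomm := fun y h1 h2 => torus_comm h hm hN (y := y) h1 h2
  have hHc : ∀ a ∈ H, ∀ b ∈ H, a * b = b * a := fun a ha b hb => by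
    let := hH.commGroup
    exact congrArg Subtype.val (mul_comm (⟨a, ha⟩ : ↥H) ⟨b, hb⟩)
  have key : ∀ A : Subgroup ↥G₁, A ≤ H → A ≠ ⊥ → ∀ z ∈ H, z ≠ 1 →
      Subgroup.centralizer (A : Set ↥G₁) = Subgroup.centralizer {z} := by
    intro A hA hA1 z hz hz1
    obtain ⟨w, hw, hw1⟩ := (Subgroup.bot_or_exists_ne_one A).resolve_left hA1
    have hsame : ∀ x ∈ H, x ≠ 1 → Subgroup.centralizer {x} = Subgroup.centralizer {z} := fun x hx hx1 =>
      centralizer_torus hcomm hz1 (hexp z hz) (Subgroup.mem_centralizer_singleton_iff.2 (hHc x hx z hz))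
        (hexp x hx) hx1
    refine le_antisymm ?_ fun x hx => Subgroup.mem_centralizer_iff.2 fun b hb => ?_
    · rw [← hsame w (hA hw) hw1]
      exact Subgroup.centralizer_le (Set.singleton_subset_iff.2 hw)
    · by_cases hb1 : b = 1
      · rw [hb1, one_mul, mul_one]
      rw [← hsame b (hA hb) hb1, Subgroup.mem_centralizer_singleton_iff] at hx
      exact hx.symm
  obtain ⟨y, hy, hy1⟩ := (Subgroup.bot_or_exists_ne_one H).resolve_left hne
  exact ⟨y, hy, hy1, key H le_rfl hne y hy hy1, fun A hA hA1 =>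
    (key A hA hA1 y hy hy1).trans (key H le_rfl hne y hy hy1).symm⟩

end Cfsg.Agent.KnownA.ReeLocal
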